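import Mathlib
import Cfsg.Agent.Base
import Cfsg.Agent.Lib.BG3.RepBasic

/-!
# Norm maps of Frobenius complements acting on abelian groups
-/

set_option autoImplicit false

namespace H14.NC

open Subgroup Finset

theorem ring_frob {A H : Type*} [Ring A] [Group H] (ρ : H →* A) (E : Subgroup H) [Fintype E] {x : H}
    (hx : x ∈ normalizer (E : Set H)) {n : ℕ}
    (hf : ∀ j, 0 < j → j < n + 1 → ∀ e ∈ E, x ^ j * e = e * x ^ j → e = 1)
    (h0 : ∑ j ∈ range (n + 1), ρ (x ^ j) = 0) : ∑ e : E, ρ e = (Fintype.card E : A) := by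
  have h1 : ∀ j ∈ range n, ∑ e : E, ρ e * ρ (x ^ (j + 1)) * ρ (e : H)⁻¹ =
      (∑ e : E, ρ e) * ρ (x ^ (j + 1)) := by
    intro j hj
    let α := E.normalizerMonoidHom ⟨x ^ (j + 1), pow_mem hx _⟩
    have hα : ∀ e : E, ((α e : E) : H) = x ^ (j + 1) * e * (x ^ (j + 1))⁻¹ := fun e => rfl
    have hb := H46.bijective_mul_inv_of_fpf α.toMonoidHom fun e he => Subtype.ext
      (hf (j + 1) j.succ_pos (by simpa using hj) e e.2 (by
        have := (hα e).symm.trans (congrArg Subtype.val he)
        rwa [mul_inv_eq_iff_eq_mul] at this))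
    rw [sum_mul]
    refine Fintype.sum_bijective _ hb _ _ fun g => ?_
    simp only [← map_mul, MulEquiv.coe_toMonoidHom, Subgroup.coe_mul, InvMemClass.coe_inv, hα]
    congr 1
    group
  have h2 : ∑ j ∈ range (n + 1), ∑ e : E, ρ e * ρ (x ^ j) * ρ (e : H)⁻¹ = 0 := by
    rw [sum_comm]
    refine sum_eq_zero fun g _ => ?_
    rw [← sum_mul, ← mul_sum, h0]; simp
  rw [sum_range_succ'] at h2 h0
  rw [sum_congr rfl h1, ← mul_sum, eq_neg_of_add_eq_zero_left h0] at h2
  simp only [pow_zero, map_one, mul_one, ← map_mul, mul_inv_cancel, sum_const, card_univ,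
    nsmul_eq_mul, mul_neg] at h2
  exact neg_add_eq_zero.1 h2

theorem act_frob {V H : Type*} [CommGroup V] [Finite V] [Group H] (φ : H →* MulAut V)
    (E : Subgroup H) [Finite E] {x : H} (hx : x ∈ normalizer (E : Set H)) {n : ℕ}
    (hf : ∀ j, 0 < j → j < n + 1 → ∀ e ∈ E, x ^ j * e = e * x ^ j → e = 1)
    (hc : (Nat.card V).Coprime (Nat.card E))
    (h0 : ∀ v, ∏ j ∈ range (n + 1), φ (x ^ j) v = 1) {e : H} (he : e ∈ E) (v : V) : φ e v = v := by
  let _ := Fintype.ofFinite E
  let ρ : MulAut V →* Module.End ℤ (Additive V) :=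
    Representation.ofMulDistribMulAction (MulAut V) V
  have hρ : ∀ ψ (v : V), ρ ψ (Additive.ofMul v) = Additive.ofMul (ψ v) := fun _ _ => rfl
  have h := ring_frob (ρ.comp φ) E hx hf (LinearMap.ext fun v => by
    rw [LinearMap.sum_apply]
    exact (ofMul_prod _ fun j => φ (x ^ j) (Additive.toMul v)).symm.trans
      (congrArg Additive.ofMul (h0 (Additive.toMul v))))
  have h1 : (ρ.comp φ) e * (Fintype.card E : Module.End ℤ (Additive V)) = Fintype.card E := by
    rw [← h, mul_sum]
    exact Fintype.sum_equiv (Equiv.mulLeft (⟨e, he⟩ : E)) _ _ fun r => by simp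
  have h2 := congrArg Additive.toMul (LinearMap.congr_fun h1 (Additive.ofMul v))
  simp only [Module.End.mul_apply, Module.End.natCast_apply, map_nsmul, toMul_nsmul,
    MonoidHom.comp_apply, hρ, toMul_ofMul] at h2
  rw [← Nat.card_eq_fintype_card] at h2
  exact (powCoprime hc).injective h2

theorem mul_pow_norm {G : Type*} [Group G] (V : Subgroup G) [V.Normal] [IsMulCommutative V]
    (v : V) (g : G) (n : ℕ) :
    letI : CommGroup V := { (inferInstance : Group V) with mul_comm := mul_comm' }
    ((∏ j ∈ range n, MulAut.conjNormal (g ^ j) v : V) : G) * g ^ n = (v * g) ^ n := by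
  letI : CommGroup V := { (inferInstance : Group V) with mul_comm := mul_comm' }
  induction n with
  | zero => simp
  | succ n ih =>
    rw [prod_range_succ, Subgroup.coe_mul, pow_succ (v * g : G), ← ih, MulAut.conjNormal_apply, pow_succ]
    group

/-- A Frobenius group in a quotient by a subgroup centralising `V`: if all lifts `v g` of the
complement generator have `(v g)ⁿ = gⁿ`, the kernel centralises `V`. -/
theorem cent_of_norm {G H : Type*} [Group G] [Finite G] [Group H] (f : G →* H)
    (hs : Function.Surjective f) (V : Subgroup G) [V.Normal] [IsMulCommutative V]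
    (hk : f.ker ≤ centralizer (V : Set G)) (E : Subgroup H) {g : G}
    (hx : f g ∈ normalizer (E : Set H)) {n : ℕ}
    (hf : ∀ j, 0 < j → j < n + 1 → ∀ e ∈ E, f g ^ j * e = e * f g ^ j → e = 1)
    (hc : (Nat.card V).Coprime (Nat.card E))
    (h0 : ∀ v ∈ V, (v * g) ^ (n + 1) = g ^ (n + 1)) {e : G} (he : f e ∈ E) :
    e ∈ centralizer (V : Set G) := by
  letI : CommGroup V := { (inferInstance : Group V) with mul_comm := mul_comm' }
  haveI : Finite H := Finite.of_surjective f hs
  let φ : H →* MulAut V := f.liftOfSurjective hs ⟨MulAut.conjNormal, fun y hy => by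
    rw [MonoidHom.mem_ker]
    ext v
    rw [MulAut.conjNormal_apply, ← mem_centralizer_iff.1 (hk hy) v v.2]; simp⟩
  have hφ : ∀ y, φ (f y) = MulAut.conjNormal y := fun y =>
    f.liftOfRightInverse_comp_apply _ _ _ y
  refine mem_centralizer_iff.2 fun v hv => ?_
  have := act_frob φ E hx hf hc (fun v => Subtype.ext (by
    have := mul_pow_norm V v g (n + 1)
    rw [h0 v v.2, mul_eq_right] at this
    simp only [← map_pow, hφ]
    exact this)) he ⟨v, hv⟩
  rw [hφ] at this
  have := congrArg Subtype.val this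
  rw [MulAut.conjNormal_apply, mul_inv_eq_iff_eq_mul] at this
  exact this.symm

end H14.NC
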