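import Mathlib
import Cfsg.Agent.Lib.FGS.Ito
import Cfsg.Agent.Lib.Small36.SIrr
import Cfsg.Agent.Lib.Char.InduceChar
import Cfsg.Agent.Lib.Char.BurnsidePQ

/-! An abelian Sylow subgroup of odd order with automizer of order two whose non-identity elements all have the same
centralizer: the induced class function of norm three. -/

set_option autoImplicit false
set_option linter.unusedSectionVars false

namespace H50.TP

open Subgroup Cfsg H80 H36 H6
open scoped ComplexConjugate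

variable {G : Type*} [Group G] [Finite G]

local notation "𝐂(" Q ")" => centralizer ((Q : Subgroup G) : Set G)
local notation "𝐍(" Q ")" => normalizer ((Q : Subgroup G) : Set G)

/-- the hypothesis. -/
structure Dih (q : ℕ) (Q : Subgroup G) : Prop where
  pr : q.Prime
  odd : q ≠ 2
  pg : IsPGroup q Q
  ne : Q ≠ ⊥
  le : Q ≤ 𝐂(Q)
  syl : ¬ q ∣ Q.index
  cent : ∀ y ∈ Q, y ≠ 1 → Cx⟦y⟧ = 𝐂(Q)
  two : (𝐂(Q)).relIndex 𝐍(Q) = 2

/-- `1 - l`. -/
noncomputable def phi {K : Type*} [Group K] (l : K →* ℂˣ) : K → ℂ := lin 1 - lin l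

theorem phi_apply {K : Type*} [Group K] (l : K →* ℂˣ) (c : K) : phi l c = 1 - l c := rfl

theorem isGen_phi {K : Type*} [Group K] (l : K →* ℂˣ) : IsGeneralizedCharacter K (phi l) :=
  isGen_sub (isGen_lin _) (isGen_lin _)

section
variable [Fintype G] {X : G → ℂ} {n : ℤ}

theorem vanish [IsSimpleGroup G] (hZ : center G = ⊥) (hX : SIrr G X) (h1 : classInner X (fun _ => 1) = 0)
    (hn : X 1 = n) {x : G} (hx : x ≠ 1) (hc : n.natAbs.Coprime cs⟦x⟧) : X x = 0 := by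
  have key : ∀ (χ : G → ℂ) (n : ℤ), IsIrrCharacter G χ → classInner χ (fun _ => 1) = 0 → χ 1 = n →
      n.natAbs.Coprime cs⟦x⟧ → χ x = 0 := fun χ n hχ h1 hn hc => by
    obtain ⟨m, -, hm, -⟩ := irr_one_dvd_card hχ
    obtain rfl : n = m := by exact_mod_cast hn.symm.trans hm
    refine (H8.irr_eq_zero_or_norm_eq hχ hm x hc).resolve_right fun e => hx (mem_bot.1 (hZ ▸ mem_center_iff.2 fun g => ?_))
    have := eq_one_of_simple hχ (fun e => by rw [e, classInner_one_one] at h1; exact one_ne_zero h1)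
      ((mem_charKer (H7.isCharacter_of_isIrr hχ)).1 (H8.commutator_mem_charKer_of_norm_eq (H7.isCharacter_of_isIrr hχ) e g))
    rw [mul_inv_eq_one, mul_inv_eq_iff_eq_mul] at this
    exact this.symm
  obtain ⟨χ, rfl | rfl⟩ := hX.exists_irr
  · exact key _ n χ.2 h1 hn hc
  · rw [classInner_neg_left, neg_eq_zero] at h1
    exact neg_eq_zero.2 (key _ (-n) χ.2 h1 (by simpa [neg_eq_iff_eq_neg] using hn) (by simpa using hc))

theorem card_dvd (hX : IsGeneralizedCharacter G X) (hn : X 1 = n) (H : Subgroup G) (h : ∀ x ∈ H, x ≠ 1 → X x = 0) :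
    Nat.card H ∣ n.natAbs := by
  classical
  obtain ⟨m, hm⟩ := gen_inner_int (isGen_restrict H hX) (sirr_one (G := H)).isGen
  have := card_mul_classInner (fun x : H => X x) fun _ => 1
  rw [hm, Finset.sum_eq_single 1 (fun x _ hx => by rw [h x x.2 (fun e => hx (Subtype.ext e)), zero_mul]) (by simp)] at this
  simp only [coe_one, map_one, mul_one, hn] at this
  exact Int.natCast_dvd.1 ⟨m, by exact_mod_cast this.symm⟩

theorem exists_deg (hX : SIrr G X) : ∃ n : ℤ, X 1 = n ∧ n.natAbs ∣ Nat.card G := by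
  obtain ⟨χ, rfl | rfl⟩ := hX.exists_irr <;> obtain ⟨m, -, hm, hd⟩ := irr_one_dvd_card χ.2
  · exact ⟨m, by simpa using hm, hd⟩
  · exact ⟨-m, by simpa using hm, by simpa using hd⟩

end

namespace Dih
variable {q : ℕ} {Q : Subgroup G} (h : Dih q Q)
include h

theorem mul_iff {a b : G} (ha : a ∈ 𝐍(Q)) (hb : b ∈ 𝐍(Q)) : a * b ∈ 𝐂(Q) ↔ (a ∈ 𝐂(Q) ↔ b ∈ 𝐂(Q)) :=
  mul_mem_iff_of_index_two (H := (𝐂(Q)).subgroupOf 𝐍(Q)) h.two (a := ⟨a, ha⟩) (b := ⟨b, hb⟩)

theorem inv {g y : G} (hg : g ∈ 𝐍(Q)) (hg' : g ∉ 𝐂(Q)) (hy : y ∈ Q) : g * y * g⁻¹ = y⁻¹ := by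
  have h1 : g * y * g⁻¹ ∈ Q := (mem_normalizer_iff.1 hg y).1 hy
  by_contra e
  have h2 : g * y * g⁻¹ * y ≠ 1 := fun e' => e (eq_inv_of_mul_eq_one_left e')
  refine hg' (h.cent _ (Q.mul_mem h1 hy) h2 ▸ mem_Cx_iff_conj.2 ?_)
  have h3 := (h.mul_iff hg hg).2 Iff.rfl y hy
  calc g * (g * y * g⁻¹ * y) * g⁻¹ = (g * g * y) * (g * g)⁻¹ * (g * y * g⁻¹) := by group
    _ = _ := by rw [← h3, mul_inv_cancel_right, h.le h1 y hy]

theorem cop {y : G} (hy : y ∈ Q) {m : ℕ} (hm : ¬ q ∣ m) : (orderOf y).Coprime m := by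
  have := Fact.mk h.pr
  obtain ⟨k, hk⟩ := IsPGroup.iff_orderOf.1 h.pg ⟨y, hy⟩
  rw [← orderOf_coe] at hk
  exact hk ▸ ((Nat.Prime.coprime_iff_not_dvd h.pr).2 hm).pow_left k

theorem not_two : ¬ q ∣ 2 := fun e => h.odd ((Nat.prime_dvd_prime_iff_eq h.pr Nat.prime_two).1 e)

theorem eq_one {y : G} (hy : y ∈ Q) {m : ℕ} (hm : ¬ q ∣ m) (e : y ^ m = 1) : y = 1 :=
  orderOf_eq_one_iff.1 (Nat.eq_one_of_dvd_coprimes (h.cop hy hm) dvd_rfl (orderOf_dvd_of_pow_eq_one e))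

theorem not_dvd : ¬ q ∣ Q.relIndex 𝐂(Q) := fun e => h.syl (e.trans (relIndex_dvd_index_of_le h.le))

theorem key (c : 𝐂(Q)) (k : ℕ) (g : 𝐂(Q)) (e : g⁻¹ * c ^ k * g ∈ Q.subgroupOf 𝐂(Q)) : g⁻¹ * c ^ k * g = c ^ k := by
  have h1 : g⁻¹ * c ^ k * g * g = g * (g⁻¹ * c ^ k * g) := Subtype.ext (g.2 _ e)
  rw [← mul_assoc, ← mul_assoc, mul_inv_cancel, one_mul] at h1
  exact mul_right_cancel h1

theorem pow_mem {c : G} (hc : c ∈ 𝐂(Q)) : c ^ Q.relIndex 𝐂(Q) ∈ Q :=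
  MonoidHom.transfer_eq_pow_aux (H := Q.subgroupOf 𝐂(Q)) ⟨c, hc⟩ (h.key _)

theorem mem_norm {c g : G} (hc : c ∈ 𝐂(Q)) (h1 : c ^ Q.relIndex 𝐂(Q) ≠ 1) (hg : g⁻¹ * c * g ∈ 𝐂(Q)) : g ∈ 𝐍(Q) := by
  have e : (g⁻¹ * c * g) ^ Q.relIndex 𝐂(Q) = g⁻¹ * c ^ Q.relIndex 𝐂(Q) * g := by
    simpa using conj_pow (a := g⁻¹) (b := c)
  have h2 := h.cent _ (h.pow_mem hg) (by rw [e]; exact fun e => h1 (by simpa using conj_eq_one_iff (a := g⁻¹).1 (by simpa using e)))
  refine mem_normalizer_fintype fun x hx => ?_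
  have h3 : g * x * g⁻¹ ∈ 𝐂(Q) := by
    rw [← h.cent _ (h.pow_mem hc) h1, ← conj_mem_Cx_conj (g := g⁻¹), inv_inv, ← e, h2]
    simpa [mul_assoc] using h.le hx
  obtain ⟨k, hk⟩ := exists_pow_eq_self_of_coprime (x := g * x * g⁻¹) (n := Q.relIndex 𝐂(Q))
    (by simpa using (MulEquiv.orderOf_eq (MulAut.conj g) x ▸ h.cop hx h.not_dvd).symm)
  exact hk ▸ Q.pow_mem (h.pow_mem h3) k

theorem exists_lam : ∃ l : 𝐂(Q) →* ℂˣ, (∃ z : 𝐂(Q), (z : G) ∈ Q ∧ l z ^ 2 ≠ 1) ∧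
    (∀ c : 𝐂(Q), (c : G) ^ Q.relIndex 𝐂(Q) = 1 → l c = 1) ∧
    ∀ (c d : 𝐂(Q)), (d : G) ^ Q.relIndex 𝐂(Q) = ((c : G) ^ Q.relIndex 𝐂(Q))⁻¹ → l d = (l c)⁻¹ := by
  obtain ⟨⟨y, hy⟩, y1⟩ := ne_bot_iff_exists_ne_one.1 h.ne
  let _ : CommGroup (Q.subgroupOf 𝐂(Q)) :=
    { (inferInstance : Group (Q.subgroupOf 𝐂(Q))) with mul_comm := fun a b => Subtype.ext (Subtype.ext (b.1.2 _ a.2)) }
  let z : Q.subgroupOf 𝐂(Q) := ⟨⟨y, h.le hy⟩, hy⟩
  obtain ⟨μ, hμ⟩ := CommGroup.exists_apply_ne_one_of_hasEnoughRootsOfUnity (Q.subgroupOf 𝐂(Q)) ℂ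
    (a := z ^ (Q.relIndex 𝐂(Q) * 2)) fun e => y1 (Subtype.ext (h.eq_one hy
      (h.pr.not_dvd_mul h.not_dvd h.not_two) (congrArg (fun x : Q.subgroupOf 𝐂(Q) => (x.1 : G)) e)))
  have e := fun c => MonoidHom.transfer_eq_pow μ c (h.key c)
  refine ⟨MonoidHom.transfer μ, ⟨z, hy, ?_⟩, fun c hc => ?_, fun c d hc => ?_⟩
  · rw [e, ← map_pow]
    convert hμ using 2
    exact Subtype.ext (pow_mul _ _ _).symm
  · rw [e, ← μ.map_one]
    exact congrArg μ (Subtype.ext (Subtype.ext hc))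
  · rw [e, e, ← map_inv]
    exact congrArg μ (Subtype.ext (Subtype.ext hc))

theorem card_norm : Nat.card 𝐍(Q) = 2 * Nat.card 𝐂(Q) := by
  rw [← h.two, H3.relIndex_mul_card (centralizer_le_normalizer _)]

variable [Fintype G]

theorem ind_res {l : 𝐂(Q) →* ℂˣ} (l1 : ∀ c : 𝐂(Q), (c : G) ^ Q.relIndex 𝐂(Q) = 1 → l c = 1)
    (l2 : ∀ (c d : 𝐂(Q)), (d : G) ^ Q.relIndex 𝐂(Q) = ((c : G) ^ Q.relIndex 𝐂(Q))⁻¹ → l d = (l c)⁻¹) (c : 𝐂(Q)) : indFun 𝐂(Q) (phi l) c = phi l c + phi l⁻¹ c := by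
  classical
  have hle := centralizer_le_normalizer (Q : Set G)
  have e : ∀ x : G, ((x⁻¹ * c * x : G)) ^ Q.relIndex 𝐂(Q) = x⁻¹ * c ^ Q.relIndex 𝐂(Q) * x := fun x => by
    simpa using conj_pow (a := x⁻¹) (b := (c : G))
  have h1 : ∀ x : G, extendByZero 𝐂(Q) (phi l) (x⁻¹ * c * x) =
      (if x ∈ 𝐂(Q) then phi l c - phi l⁻¹ c else 0) + if x ∈ 𝐍(Q) then phi l⁻¹ c else 0 := by
    intro x
    by_cases hx : x ∈ 𝐂(Q)
    · rw [if_pos hx, if_pos (hle hx), sub_add_cancel, H7.extendByZero_inv_conj_mem _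
        (gen_isClassFunction (isGen_phi _)) hx, H7.extendByZero_coe]
    rw [if_neg hx, zero_add]
    split_ifs with hn
    · have : x⁻¹ * c * x ∈ 𝐂(Q) := by
        rw [h.mul_iff (mul_mem (inv_mem hn) (hle c.2)) hn, mul_mem_cancel_right c.2, inv_mem_iff]
      rw [H7.extendByZero_of_mem _ _ this, phi_apply, phi_apply, l2 c ⟨_, this⟩ (by
        rw [e]; simpa using h.inv (inv_mem hn) (fun e => hx (inv_mem_iff.1 e)) (h.pow_mem c.2))]
      rfl
    · rw [H7.extendByZero_eq_zero_iff]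
      intro hm
      rw [phi_apply, l1 ⟨_, hm⟩ (by rw [e, not_not.1 fun e => hn (h.mem_norm c.2 e hm)]; simp), Units.val_one, sub_self]
  have h2 : ∀ (H : Subgroup G) (a : ℂ), ∑ x : G, (if x ∈ H then a else 0) = Nat.card H * a := fun H a => by
    rw [← Finset.sum_filter, Finset.sum_const, nsmul_eq_mul, Nat.card_eq_fintype_card, Fintype.card_subtype]
  rw [H7.indFun_apply, Finset.sum_congr rfl fun x _ => h1 x, Finset.sum_add_distrib, h2, h2, h.card_norm]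
  have := card_ne_zero (G := 𝐂(Q))
  field_simp
  push_cast
  ring

theorem pair [Fintype 𝐂(Q)] {l : 𝐂(Q) →* ℂˣ} (l1 : ∀ c : 𝐂(Q), (c : G) ^ Q.relIndex 𝐂(Q) = 1 → l c = 1)
    {z : 𝐂(Q)} (hz : (z : G) ∈ Q) (lz : l z ^ 2 ≠ 1) {w : G} (hw : w * w = 1) :
    ∃ n : ℕ, (Nat.card 𝐂(Q) : ℂ) * classInner (indFun 𝐂(Q) (phi l)) (pairFun w) = (Nat.card Q * n) ^ 2 := by
  classical
  have hle := centralizer_le_normalizer (Q : Set G)
  let I : Set G := {u | u ∈ 𝐍(Q) ∧ u ∉ 𝐂(Q) ∧ IsConj w u}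
  let J : G → ℂ := fun u => if u ∈ I then 1 else 0
  have hI : ∀ u, ∀ y ∈ Q, u * y ∈ I ↔ u ∈ I := by
    have : ∀ u ∈ I, ∀ y ∈ Q, u * y ∈ I := by
      rintro u ⟨u1, u2, u3⟩ y hy
      obtain ⟨k, hk⟩ := exists_pow_eq_self_of_coprime (h.cop hy h.not_two).symm
      refine ⟨mul_mem u1 (le_normalizer hy), fun e => u2 ((mul_mem_cancel_right (h.le hy)).1 e),
        u3.trans (isConj_iff.2 ⟨(y ^ k)⁻¹, ?_⟩)⟩
      rw [inv_inv, ← h.inv u1 u2 (Q.pow_mem hy k), inv_mul_cancel_right, mul_assoc, ← pow_two, ← pow_mul, mul_comm k,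
        pow_mul, hk]
    exact fun u y hy => ⟨fun e => by simpa using this _ e _ (inv_mem hy), fun e => this _ e _ hy⟩
  obtain ⟨n, hn⟩ : ∃ n : ℕ, ∑ u : G, J u = Nat.card Q * n := by
    have e : I = QuotientGroup.mk ⁻¹' ((QuotientGroup.mk '' I : Set (G ⧸ Q))) := by
      refine Set.Subset.antisymm (Set.subset_preimage_image _ _) ?_
      rintro u ⟨v, hv, e⟩
      simpa using (hI v _ (QuotientGroup.eq.1 e)).2 hv
    refine ⟨Nat.card (QuotientGroup.mk '' I : Set (G ⧸ Q)), ?_⟩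
    rw [← Nat.cast_mul, ← QuotientGroup.card_preimage_mk, ← e, Finset.sum_boole, Nat.card_eq_fintype_card,
      Fintype.card_subtype]
  have sq : ∀ u, IsConj w u → u * u = 1 := fun u hu => by
    obtain ⟨g, rfl⟩ := isConj_iff.1 hu
    rw [← MulAut.conj_apply, ← map_mul, hw, map_one]
  have h1 : ∀ (c : 𝐂(Q)) (u : G), phi l c * (classInd w u * classInd w (u⁻¹ * c)) = J u * (phi l c * J (u⁻¹ * c)) := by
    intro c u
    by_cases a : IsConj w u
    swap
    · simp only [J, I, classInd_of_not_isConj a, Set.mem_ofPred_eq, a]; simp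
    by_cases b : IsConj w (u⁻¹ * c)
    swap
    · simp only [J, I, classInd_of_not_isConj b, Set.mem_ofPred_eq, b]; simp
    by_cases e : (c : G) ^ Q.relIndex 𝐂(Q) = 1
    · simp [phi_apply, l1 c e]
    have e1 : u⁻¹ * c * u = (c : G)⁻¹ := by
      rw [eq_inv_iff_mul_eq_one, ← sq _ b, ← inv_eq_of_mul_eq_one_right (sq _ a), inv_inv, mul_assoc (u * c),
        inv_eq_of_mul_eq_one_right (sq _ a)]
    have u1 := h.mem_norm c.2 e (e1 ▸ inv_mem c.2)
    have u2 : u ∉ 𝐂(Q) := fun e' => e (h.eq_one (h.pow_mem c.2) h.not_two (by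
      have := congrArg (· ^ Q.relIndex 𝐂(Q)) e1
      simp only [inv_pow] at this
      rw [show (u⁻¹ * c * u) ^ Q.relIndex 𝐂(Q) = u⁻¹ * c ^ Q.relIndex 𝐂(Q) * u by
        simpa using conj_pow (a := u⁻¹) (b := (c : G)), mul_assoc, e' _ (h.pow_mem c.2), inv_mul_cancel_left] at this
      rw [pow_two, ← eq_inv_iff_mul_eq_one, ← this]))
    have m1 : u ∈ I := ⟨u1, u2, a⟩
    have m2 : u⁻¹ * c ∈ I := ⟨mul_mem (inv_mem u1) (hle c.2), by rwa [mul_mem_cancel_right c.2, inv_mem_iff], b⟩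
    simp only [J, classInd_of_isConj a, classInd_of_isConj b, if_pos m1, if_pos m2, one_mul]
  have h2 : ∀ u ∈ I, ∑ c : 𝐂(Q), phi l c * J (u⁻¹ * c) = Nat.card Q * n := by
    rintro u ⟨u1, u2, -⟩
    have a : ∑ c : 𝐂(Q), J (u⁻¹ * c) = Nat.card Q * n := by
      rw [← hn, ← Equiv.sum_comp (Equiv.mulLeft u⁻¹) J, ← Finset.sum_subtype (Finset.univ.filter (· ∈ 𝐂(Q))) (by simp)
        fun c => J (u⁻¹ * c), Finset.sum_filter]
      refine Finset.sum_congr rfl fun c _ => ite_eq_left_iff.2 fun e => (if_neg fun e' => e ?_).symm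
      have := (h.mul_iff u1 e'.1).2 (iff_of_false u2 e'.2.1)
      simpa using this
    have b : ∑ c : 𝐂(Q), l c * J (u⁻¹ * c) = 0 := by
      have : ∑ c : 𝐂(Q), l c * J (u⁻¹ * c) = l z * ∑ c : 𝐂(Q), l c * J (u⁻¹ * c) := by
        rw [Finset.mul_sum, ← Equiv.sum_comp (Equiv.mulRight z)]
        refine Finset.sum_congr rfl fun c _ => ?_
        simp only [J, Equiv.coe_mulRight, map_mul, Units.val_mul, coe_mul, ← mul_assoc u⁻¹, hI _ _ hz]
        ring
      exact by_contra fun e => lz (by rw [Units.val_eq_one.1 ((mul_eq_right₀ e).1 this.symm), one_pow])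
    simp only [phi_apply, sub_mul, one_mul, Finset.sum_sub_distrib, a, b, sub_zero]
  refine ⟨n, ?_⟩
  rw [H7.classInner_indFun_left _ _ (isClassFunction_pairFun w), card_mul_classInner]
  simp only [conj_pairFun]
  simp only [pairFun, Finset.mul_sum, h1]
  rw [Finset.sum_comm, pow_two]
  nth_rewrite 1 [← hn]
  rw [Finset.sum_mul]
  refine Finset.sum_congr rfl fun u _ => ?_
  rw [← Finset.mul_sum]
  by_cases e : u ∈ I
  · rw [h2 u e]
  · simp only [J, if_neg e, zero_mul]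

theorem pgroup [IsSimpleGroup G] (hZ : center G = ⊥) {r : ℕ} [Fact r.Prime]
    (hπ : ∀ p : ℕ, p.Prime → p ∣ Nat.card G → p = 2 ∨ p = q ∨ p = r) {w : G} (w1 : w ≠ 1) (hw : w * w = 1)
    (h2 : ¬ 2 ∣ cs⟦w⟧) (hq : ¬ q ∣ Nat.card Cx⟦w⟧) (R : Sylow r G) : IsPGroup r 𝐂(R) := by
  classical
  obtain ⟨l, ⟨z, hz, lz⟩, l1, l2⟩ := h.exists_lam
  have n1 : l ≠ 1 := fun e => lz (by simp [e])
  have n2 : l ≠ l⁻¹ := fun e => lz (by rw [pow_two]; nth_rewrite 1 [e]; simp)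
  have gα : IsGeneralizedCharacter G (indFun 𝐂(Q) (phi l)) := H7.isGeneralizedCharacter_indFun _ (isGen_phi l)
  have i1 : classInner (indFun 𝐂(Q) (phi l)) (fun _ => 1) = 1 := by
    rw [H7.classInner_indFun_left _ _ (isClassFunction_const 1), phi, classInner_sub_left, ← lin_one, lin_inner,
      lin_inner, if_pos rfl, if_neg n1, sub_zero]
  have i3 : classInner (indFun 𝐂(Q) (phi l)) (indFun 𝐂(Q) (phi l)) = 3 := by
    rw [H7.classInner_indFun_left _ _ (gen_isClassFunction gα), funext (h.ind_res l1 l2)]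
    change classInner (phi l) (phi l + phi l⁻¹) = 3
    simp only [phi, classInner_add_right, classInner_sub_left, classInner_sub_right, lin_inner, if_neg n1, if_neg n2,
      if_neg n1.symm, if_true, if_neg (show (1 : 𝐂(Q) →* ℂˣ) ≠ l⁻¹ from fun e => lz (by
        simp [inv_eq_one.1 (DFunLike.congr_fun e z).symm]))]
    norm_num
  obtain ⟨X, Y, hX, hY, hXY, e⟩ := exists_sirr_of_norm_two (isGen_sub gα sirr_one.isGen)
    (by rw [norm_sub_sirr gα sirr_one i1, i3]; norm_num)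
  obtain ⟨oX, oY⟩ := sirr_one.orth_of_add hX hXY (by
    rw [← e, classInner_sub_right, gen_inner_comm sirr_one.isGen gα, i1, classInner_one_one, sub_self])
  rw [classInner_eq_zero_comm] at oX oY
  replace e : indFun 𝐂(Q) (phi l) = (fun _ => 1) + (X + Y) := sub_eq_iff_eq_add'.1 e
  have hc : ∀ c ∈ 𝐂(Q), ¬ q ∣ cs⟦c⟧ := fun c hc d => h.syl (d.trans (index_dvd_of_le (le_Cx_iff.2 hc)))
  have key : ∀ {X Y : G → ℂ} {a b : ℤ}, SIrr G X → SIrr G Y → classInner X Y = 0 → classInner X (fun _ => 1) = 0 →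
      indFun 𝐂(Q) (phi l) = (fun _ => 1) + (X + Y) → X 1 = a → Y 1 = b → 1 + (a + b) = 0 →
      (∃ p : ℕ, p.Prime ∧ p ∣ a.natAbs ∧ p ≠ q) ∧ ((∀ p : ℕ, p.Prime → p ∣ a.natAbs → p = 2) → ¬ q ∣ b.natAbs) := by
    intro X Y a b hX hY hXY oX e ha hb hab
    refine ⟨by_contra fun hh => ?_, fun hh hd => ?_⟩
    · push Not at hh
      have e1 : classInner X (indFun 𝐂(Q) (phi l)) = 1 := by
        rw [e, classInner_add_right, classInner_add_right, oX, hXY, hX.inner_self, zero_add, add_zero]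
      rw [H7.classInner_indFun_right _ _ hX.classFun, classInner_def, Finset.sum_eq_zero, mul_zero] at e1
      · exact zero_ne_one e1
      intro c _
      by_cases c1 : c = 1
      · simp [c1, phi_apply]
      · rw [vanish hZ hX oX ha (fun e => c1 (Subtype.ext e)) (Nat.coprime_of_dvd fun p hp d => hh p hp d ▸ hc c c.2),
          zero_mul]
    · have e1 := vanish hZ hX oX ha w1 (Nat.coprime_of_dvd fun p hp d => hh p hp d ▸ h2)
      have e2 : Y w = -1 := by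
        have := congrFun e w
        rw [H7.indFun_eq_zero' _ _ _ fun c hc => by
          obtain ⟨g, hg⟩ := isConj_iff.1 hc
          rw [phi_apply, l1 c (h.eq_one (h.pow_mem c.2) h.not_two (by
            rw [← pow_mul, mul_comm, pow_mul, ← hg, conj_pow (i := 2), pow_two, hw]; simp)), Units.val_one, sub_self]] at this
        simp only [Pi.add_apply, e1] at this
        linear_combination -this
      obtain ⟨n, hn⟩ := h.pair l1 hz lz hw
      rw [e, classInner_add_left, classInner_add_left, sirr_one.inner_pairFun, hX.inner_pairFun, hY.inner_pairFun, e1, e2,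
        ha, hb, ← card_Cx_mul_cs w, ← H3.relIndex_mul_card h.le] at hn
      obtain ⟨k, hk⟩ : Nat.card Q ∣ cs⟦w⟧ := by
        have := Fact.mk h.pr
        obtain ⟨j, hj⟩ := IsPGroup.iff_card.1 h.pg
        refine Nat.Coprime.dvd_of_dvd_mul_left (k := Nat.card Q) ?_ (card_Cx_mul_cs w ▸ card_subgroup_dvd_card Q)
        exact hj ▸ ((Nat.Prime.coprime_iff_not_dvd h.pr).2 hq).pow_left j
      have k1 : ¬ q ∣ k := fun d => h.syl (d.trans (Nat.dvd_of_mul_dvd_mul_left (Nat.card_pos (α := Q))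
        (by rw [← hk, card_mul_index]; exact cs_dvd_card w)))
      have b0 : (b : ℂ) ≠ 0 := hb ▸ hY.one_ne_zero
      have c0 := card_ne_zero (G := Cx⟦w⟧)
      have q0 := card_ne_zero (G := Q)
      have k0 : (k : ℂ) ≠ 0 := Nat.cast_ne_zero.2 fun e => k1 (e ▸ dvd_zero _)
      have hab' : (a : ℂ) = -1 - b := by exact_mod_cast (by omega : a = -1 - b)
      rw [hk] at hn
      have e3 : (-(Q.relIndex 𝐂(Q) * k * a) : ℤ) = b * (Nat.card Cx⟦w⟧ * n ^ 2) := by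
        have : (-(Q.relIndex 𝐂(Q) * k * a) : ℂ) = b * (Nat.card Cx⟦w⟧ * n ^ 2) := by
          push_cast at hn
          field_simp at hn
          rw [hab']
          linear_combination hn
        exact_mod_cast this
      have e4 := congrArg Int.natAbs e3
      simp only [Int.natAbs_neg, Int.natAbs_mul, Int.natAbs_natCast] at e4
      rcases (Nat.Prime.dvd_mul h.pr).1 (e4 ▸ hd.mul_right _) with d | d
      · exact h.pr.not_dvd_mul h.not_dvd k1 d
      · exact h.odd (hh q h.pr d)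
  obtain ⟨a, ha, da⟩ := exists_deg hX
  obtain ⟨b, hb, db⟩ := exists_deg hY
  have hab : 1 + (a + b) = 0 := by
    have := congrFun e 1
    rw [H7.indFun_one, phi_apply, map_one, Units.val_one, sub_self, mul_zero, Pi.add_apply, Pi.add_apply, ha, hb] at this
    exact_mod_cast this.symm
  have fin : ∀ {X : G → ℂ} {a : ℤ}, SIrr G X → classInner X (fun _ => 1) = 0 → X 1 = a →
      (∀ p : ℕ, p.Prime → p ∣ a.natAbs → p = r) → IsPGroup r 𝐂(R) := fun {X a} hX oX ha hh => by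
    have := card_dvd hX.isGen ha 𝐂(R) fun x hx x1 => vanish hZ hX oX ha x1
      (Nat.coprime_of_dvd fun p hp d => hh p hp d ▸ not_dvd_cs_iff.2 ⟨R, le_Cx_iff.2 hx⟩)
    exact IsPGroup.of_card (Nat.eq_prime_pow_of_unique_prime_dvd Nat.card_pos.ne' fun hp d => hh _ hp (d.trans this))
  have cop : ∀ p : ℕ, p.Prime → p ∣ a.natAbs → ¬ p ∣ b.natAbs := fun p hp d1 d2 => by
    have := dvd_add (Int.natCast_dvd.2 d1) (Int.natCast_dvd.2 d2)
    rw [show a + b = -1 by omega, dvd_neg, Int.natCast_dvd] at this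
    exact hp.not_dvd_one this
  obtain ⟨⟨s, s1, s2, s3⟩, k1⟩ := key hX hY hXY oX e ha hb hab
  obtain ⟨⟨t, t1, t2, t3⟩, k2⟩ := key hY hX (classInner_eq_zero_comm.1 hXY) oY (by rw [e, add_comm X]) hb ha (by omega)
  by_contra hh
  have A := mt (fin hX oX ha) hh
  have B := mt (fin hY oY hb) hh
  push Not at A B
  obtain ⟨u, u1, u2, u3⟩ := A
  obtain ⟨v, v1, v2, v3⟩ := B
  have := hπ s s1 (s2.trans da)
  have := hπ t t1 (t2.trans db)
  have := hπ u u1 (u2.trans da)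
  have := hπ v v1 (v2.trans db)
  have c : ∀ {p p' : ℕ}, p.Prime → p ∣ a.natAbs → p' ∣ b.natAbs → p ≠ p' := fun hp d d' e => cop _ hp d (e ▸ d')
  have := c u1 u2 v2
  by_cases e2 : u = 2
  · refine k1 (fun p hp d => ?_) ((show v = q by omega) ▸ v2)
    have := hπ p hp (d.trans da)
    have := c hp d v2
    have := c hp d t2
    have := c u1 u2 t2
    omega
  · refine k2 (fun p hp d => ?_) ((show u = q by omega) ▸ u2)
    have := hπ p hp (d.trans db)
    have := c u1 u2 d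
    have := c s1 s2 d
    have := c s1 s2 v2
    omega

end Dih

end H50.TP
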